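import Cfsg.Agent.Spor.ModelM23
import Cfsg.Agent.Spor.M24Class
import Cfsg.Agent.Comp.Cent

/-! Scott's inequality for permutation groups; generating triples of `M23`. -/

set_option autoImplicit false

namespace Cfsg.Agent.Spor.M23Gen

open Module LinearMap Subgroup Cfsg.Agent.Comp

section Scott
variable {V : Type*} [AddCommGroup V] [Module ℚ V] [FiniteDimensional ℚ V]

theorem scott {x y z : Module.End ℚ V} (h : x * y * z = 1) :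
    finrank ℚ (ker (1 - x)) + finrank ℚ (ker (1 - y)) + finrank ℚ (ker (1 - z)) +
      finrank ℚ (range (1 - x) ⊔ range (1 - y) :) ≤
      2 * finrank ℚ V + finrank ℚ (ker (1 - x) ⊓ ker (1 - y) :) := by
  have e : ∀ v ∈ ker (1 - z), x (y v) = v := fun v hv => by
    have : z v = v := (sub_eq_zero.1 hv).symm
    conv_lhs => rw [← this]
    exact congrFun (congrArg DFunLike.coe h) v
  let f : ker (1 - z) →ₗ[ℚ] V := (1 - y) ∘ₗ (ker (1 - z)).subtype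
  have h1 := f.finrank_range_add_finrank_ker
  have h2 : finrank ℚ (range f) ≤ finrank ℚ (range (1 - x) ⊓ range (1 - y) :) :=
    Submodule.finrank_mono (by
      rintro _ ⟨v, rfl⟩
      exact ⟨⟨-y v, by simp [f, e v v.2, neg_add_eq_sub]⟩, v, rfl⟩)
  have h3 : finrank ℚ (ker f) ≤ finrank ℚ (ker (1 - x) ⊓ ker (1 - y) :) := by
    rw [← Submodule.finrank_map_subtype_eq]
    refine Submodule.finrank_mono ?_
    rintro _ ⟨v, hv, rfl⟩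
    have : y v = v := (sub_eq_zero.1 hv).symm
    exact ⟨sub_eq_zero.2 (by simpa [this] using (e v v.2).symm), hv⟩
  have h4 := Submodule.finrank_sup_add_finrank_inf_eq (range (1 - x)) (range (1 - y))
  have h5 := (1 - x).finrank_range_add_finrank_ker
  have h6 := (1 - y).finrank_range_add_finrank_ker
  omega

end Scott

section Perm
variable {G Ω : Type*} [Group G] [MulAction G Ω] [Fintype Ω]

/-- the permutation representation -/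
def ρ (Ω : Type*) [MulAction G Ω] : G →* Module.End ℚ (Ω → ℚ) where
  toFun g := funLeft ℚ ℚ (g⁻¹ • ·)
  map_one' := by ext; simp [funLeft]
  map_mul' g k := by ext; simp [funLeft, mul_smul]

/-- the dimension of the fixed space -/
noncomputable def dm (Ω : Type*) [MulAction G Ω] (g : G) : ℕ := finrank ℚ (ker (1 - ρ Ω g))

theorem le_dm [Finite G] {g : G} {p f : ℕ} (hp : p.Prime) (hg : orderOf g = p)
    (hf : ∀ k : G, orderOf k = p → f ≤ Nat.card (MulAction.fixedBy Ω k)) :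
    Fintype.card Ω + (p - 1) * f ≤ dm Ω g * p := by
  classical
  have := Fintype.ofFinite G
  have h1 := MulAction.sum_card_fixedBy_eq_card_orbits_mul_card_group (zpowers g) Ω
  have h2 : Fintype.card (Quotient (MulAction.orbitRel (zpowers g) Ω)) ≤ dm Ω g := by
    rw [← finrank_fintype_fun_eq_card ℚ]
    refine finrank_le_finrank_of_injective (f := (funLeft ℚ ℚ (Quotient.mk _)).codRestrict _
      fun v => sub_eq_zero.2 (funext fun i => congrArg v (Quotient.sound ?_)))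
      fun u v e => funLeft_injective_of_surjective _ _ _ Quotient.mk_surjective (congrArg Subtype.val e)
    exact ⟨⟨g, mem_zpowers g⟩, smul_inv_smul g i⟩
  have h3 : Fintype.card (zpowers g) = p := by rw [Fintype.card_zpowers, hg]
  rw [← Finset.add_sum_erase _ _ (Finset.mem_univ 1), h3] at h1
  refine le_trans (Nat.add_le_add (by simp) ?_) (h1.le.trans (Nat.mul_le_mul_right _ h2))
  rw [← h3, ← Finset.card_univ, ← Finset.card_erase_of_mem (Finset.mem_univ 1), ← smul_eq_mul]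
  refine Finset.card_nsmul_le_sum _ _ _ fun k hk => ?_
  rw [← Nat.card_eq_fintype_card]
  refine hf k (((Nat.dvd_prime hp).1 (hg ▸ orderOf_dvd_of_mem_zpowers k.2)).resolve_left fun e => ?_)
  exact Finset.ne_of_mem_erase hk (Subtype.ext (orderOf_eq_one_iff.1 e))

theorem ree {x y z : G} (h : x * y * z = 1) (hg : closure {x, y} = ⊤) {a b : Ω}
    (ht : ∀ c, c = a ∨ ∃ g : G, g • b = c) : dm Ω x + dm Ω y + dm Ω z ≤ Fintype.card Ω + 4 := by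
  classical
  have h1 := scott (x := ρ Ω x) (y := ρ Ω y) (z := ρ Ω z) (by rw [← map_mul, ← map_mul, h, map_one])
  have h2 : finrank ℚ (ker (1 - ρ Ω x) ⊓ ker (1 - ρ Ω y) :) ≤ 2 := by
    refine (finrank_le_finrank_of_injective (f := funLeft ℚ ℚ ![a, b] ∘ₗ Submodule.subtype _)
      ((injective_iff_map_eq_zero _).2 fun v hv => Subtype.ext (funext fun c => ?_))).trans (by simp)
    have k : ∀ g : G, ρ Ω g v = v := fun g => by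
      have : g ∈ closure {x, y} := hg ▸ mem_top g
      induction this using closure_induction with
      | mem k hk => rcases hk with rfl | rfl; exacts [(sub_eq_zero.1 v.2.1).symm, (sub_eq_zero.1 v.2.2).symm]
      | one => simp
      | mul g k _ _ h1 h2 => rw [map_mul, Module.End.mul_apply, h2, h1]
      | inv g _ h1 => rw [← h1, ← Module.End.mul_apply, ← map_mul, inv_mul_cancel, map_one, h1]; rfl
    rcases ht c with rfl | ⟨g, rfl⟩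
    · exact congrFun hv 0
    · exact (congrFun (k g) _).symm.trans ((congrArg v.1 (inv_smul_smul g b)).trans (congrFun hv 1))
  have h3 : Fintype.card Ω ≤ finrank ℚ (range (1 - ρ Ω x) ⊔ range (1 - ρ Ω y) :) + 2 := by
    generalize hU : range (1 - ρ Ω x) ⊔ range (1 - ρ Ω y) = U
    have k : ∀ g : G, ∀ v, v - ρ Ω g v ∈ U := fun g => by
      have : g ∈ closure {x, y} := hg ▸ mem_top g
      induction this using closure_induction with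
      | mem k hk =>
        rcases hk with rfl | rfl
        exacts [fun v => hU.le (Submodule.mem_sup_left ⟨v, rfl⟩),
          fun v => hU.le (Submodule.mem_sup_right ⟨v, rfl⟩)]
      | one => simp
      | mul g k _ _ h1 h2 => exact fun v => by simpa using add_mem (h2 v) (h1 (ρ Ω k v))
      | inv g _ h1 =>
        refine fun v => neg_mem_iff.1 ?_
        simpa [← Module.End.mul_apply, ← map_mul] using h1 (ρ Ω g⁻¹ v)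
    have e : U ⊔ Submodule.span ℚ (Set.range ![Pi.single a 1, Pi.single b 1]) = ⊤ := by
      rw [eq_top_iff, ← (Pi.basisFun ℚ Ω).span_eq, Submodule.span_le]
      rintro _ ⟨c, rfl⟩
      rw [Pi.basisFun_apply]
      rcases ht c with rfl | ⟨g, rfl⟩
      · exact Submodule.mem_sup_right (Submodule.subset_span ⟨0, rfl⟩)
      · have := sub_mem (Submodule.mem_sup_right (S := U) (Submodule.subset_span
          (s := Set.range ![Pi.single a (1 : ℚ), Pi.single b 1]) ⟨1, rfl⟩))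
          (Submodule.mem_sup_left (k g (Pi.single b 1)))
        have e : ρ Ω g (Pi.single b 1) = Pi.single (g • b) 1 := funext fun i => by
          simp [ρ, funLeft, Pi.single_apply, inv_smul_eq_iff]
        simpa [e] using this
    rw [← finrank_fintype_fun_eq_card ℚ, ← finrank_top, ← e]
    exact (Submodule.finrank_add_le_finrank_add_finrank _ _).trans
      (Nat.add_le_add_left ((finrank_range_le_card _).trans (by simp)) _)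
  rw [finrank_fintype_fun_eq_card] at h1
  unfold dm
  omega

end Perm

open ModelM23

def T : List (ℕ × ℕ × ℕ × List ℕ × List ℕ × List ℕ × List ℕ) :=
  [(2, 5, 11, [0], [0, 2, 0, 2, 0, 3, 0, 2, 0, 2, 2, 0, 2], [0], [0, 3, 0, 2, 0, 3, 0, 3, 3, 0, 3, 3, 0, 2, 2, 0, 3, 0, 3, 3, 0, 3, 0, 2, 2, 0, 3]),
  (2, 5, 23, [0], [0, 2, 0, 3, 0, 2, 2], [0], [0, 3, 3, 0, 3, 0, 3, 0, 2, 0, 3, 0, 2, 2, 0, 2, 2, 0, 2, 0, 2, 0, 2]),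
  (2, 7, 7, [0], [2, 0, 2, 0, 3, 0, 2, 0, 2, 0, 3, 0, 2], [0], [0, 2, 0, 3, 0, 2, 2, 2, 0, 3, 3, 0, 3, 3, 3, 0, 3, 3, 0, 3, 3, 3, 0, 3]),
  (2, 7, 11, [0], [2, 0, 2, 0, 2, 0, 2, 2], [0], [3, 0, 3, 3, 0, 3, 3, 0, 3, 0, 2, 0, 3, 3, 0, 2, 2, 0, 2, 0, 3, 3, 0, 2, 0, 2]),
  (2, 7, 23, [0], [2, 0, 2, 0, 2, 0, 2], [0], [2, 0, 2, 0, 2, 0, 2, 0, 2, 0, 2]),
  (2, 11, 11, [0], [2, 0, 3, 0, 3, 0, 2, 2, 0, 2, 2], [0], [2, 0, 2, 2, 2, 0, 3, 3, 3, 0, 3, 0, 2, 2, 0, 2, 2, 2, 0, 2, 2, 0, 3]),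
  (2, 11, 23, [0], [0, 2, 0, 3, 0, 3, 0, 2, 2], [0], [2, 0, 2, 0, 3, 0, 2, 0, 3, 3, 3, 0, 2, 0, 3, 3, 0, 2, 0, 2, 0, 3, 3]),
  (2, 23, 23, [0], [2, 0, 3, 0, 3, 0, 3, 0, 2, 2], [0], [0, 3, 0, 2, 2, 2, 2, 2, 0, 3, 3, 0, 3, 3, 3, 0, 3, 3, 3, 0, 3, 3, 0]),
  (3, 3, 11, [0, 2, 2, 0, 2, 2], [0, 2, 0, 2, 2, 0, 3, 0, 3, 0, 3, 0, 2, 0, 2, 0, 2, 2], [3, 0, 3, 1, 2, 0, 2, 1, 2, 0, 2, 0, 3, 1, 2, 0, 2, 0, 3, 0, 2, 0, 2], [1, 3, 1, 3, 0, 2, 0, 2, 0, 3, 1, 3, 0, 3, 1, 3, 0, 3, 1, 3]),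
  (3, 3, 23, [0, 2, 2, 0, 2, 2], [2, 0, 2, 0, 2, 0, 2, 2, 0, 2, 0, 3, 0, 3], [2, 0, 3, 0, 2, 1, 3, 1, 2, 0, 3, 1, 2, 1, 3, 1, 2, 0, 3, 0, 2, 1, 3], [1, 3, 1, 2, 0, 2, 0, 3, 0, 2, 1, 2, 0, 3, 0, 2, 1, 3, 1, 2, 0, 3]),
  (3, 5, 5, [0, 2, 2, 0, 2, 2], [2, 0, 2, 0, 2, 0, 3, 0, 2, 0, 2, 2, 0, 2], [2, 0, 2, 1, 2, 0, 2, 0, 3, 1, 3, 0, 3, 3, 1, 3], [3, 0, 3, 0, 3, 1, 2, 2, 0, 3, 3, 1, 2, 1, 2, 1, 2, 0]),
  (3, 5, 7, [0, 2, 2, 0, 2, 2], [2, 0, 2, 2, 0, 2, 2, 0, 3, 0, 2, 0, 2], [2, 0, 2, 0, 2, 1, 2, 0, 3, 1, 3, 0, 2, 2, 1, 2, 1, 3, 1, 2], [1, 2, 1, 2, 0, 3, 1, 2, 0, 2, 0, 2, 2, 0, 3, 1]),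
  (3, 5, 11, [0, 2, 2, 0, 2, 2], [0, 2, 0, 2, 2, 0, 2, 0, 2, 0, 2, 0, 3], [0, 2, 0, 2, 1, 2, 2, 1, 3, 3, 0, 3, 0, 2, 2, 0, 2, 1, 2, 2], [1, 3, 0, 2, 2, 0, 2, 1, 2, 0, 3, 1, 3, 1, 2, 0, 3, 1, 3]),
  (3, 5, 23, [0, 2, 2, 0, 2, 2], [2, 0, 2, 2, 0, 2, 0, 2, 0, 3], [0, 3, 0, 2, 1, 2, 0, 2, 0, 3, 0, 2, 1, 2, 0, 2], [1, 3, 3, 0, 2, 2, 0, 2, 1, 2, 1, 3, 3, 0, 2, 1, 3, 1, 3]),
  (3, 7, 7, [0, 2, 2, 0, 2, 2], [2, 0, 2, 0, 3, 0], [3, 0, 3, 3, 0, 3, 0, 2, 0, 3, 1, 2, 2, 2], [2, 0, 2, 0, 2, 1, 2, 1, 2, 1, 2, 2, 1, 3, 0, 3, 1]),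
  (3, 7, 11, [0, 2, 2, 0, 2, 2], [0, 2, 0, 2, 0, 3], [3, 1, 3, 3, 1, 3, 1, 2, 1, 3, 0, 2, 2, 2], [2, 1, 3, 3, 1, 3, 1, 3, 1, 3, 0, 2]),
  (3, 7, 23, [0, 2, 2, 0, 2, 2], [2, 0, 3, 0, 2, 0], [1, 2, 2, 2, 0, 3, 3, 1, 3, 0, 3, 0, 2, 2], [0, 3, 0, 3, 0, 2, 0, 3, 3, 0, 3, 0, 3, 0, 3, 3, 1]),
  (3, 11, 11, [0, 2, 2, 0, 2, 2], [2, 0, 2, 2, 0, 2, 0, 2, 0], [0, 2, 0, 2, 0, 3, 1, 2, 1, 2, 1, 2, 1, 3, 3, 3, 3], [1, 2, 1, 2, 2, 2, 0, 2, 1, 3, 1, 2, 0, 2]),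
  (3, 11, 23, [0, 2, 2, 0, 2, 2], [0, 2, 0, 2, 0, 2, 2, 0, 2], [2, 0, 2, 2, 2, 0, 2, 1, 2, 1, 2, 0, 3, 3, 3, 1, 3], [1, 2, 0, 3, 3, 0, 2, 0, 2, 1, 3, 0, 2, 2, 2, 1, 2]),
  (3, 23, 23, [0, 2, 2, 0, 2, 2], [2, 0], [0, 3, 3, 0, 3, 1, 2, 1, 2, 0, 2, 1, 2, 2, 1, 2, 2], [3, 0, 2, 0, 2, 1, 3, 3, 0, 2, 0, 2, 1, 3, 3, 0]),
  (5, 5, 5, [0, 2, 0, 3], [3, 0, 3, 0, 2, 2, 0, 2, 2], [0, 0, 3, 1, 3, 3, 1, 2, 1, 2, 1, 3, 0, 2, 0, 2, 2], [2, 1, 2, 1, 2, 1, 1, 2, 2, 1, 3, 1]),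
  (5, 5, 7, [0, 2, 0, 3], [0, 2, 0, 2, 0, 2, 0, 3, 0, 2, 0, 2, 2], [0, 2, 2, 1, 2, 1, 2, 0, 2, 0, 0, 2, 0, 3, 1, 2], [2, 2, 1, 1, 2, 1, 1, 2, 1, 3, 0, 0]),
  (5, 5, 11, [0, 2, 0, 3], [3, 0, 2, 2, 0, 2, 0, 2, 0, 2], [2, 2, 0, 2, 0, 3, 1, 1, 2, 1, 1, 3, 0, 0, 2, 0, 2, 2], [1, 2, 0, 2, 1, 3, 3, 1, 2, 2, 0, 3, 1, 2, 0, 3]),
  (5, 5, 23, [0, 2, 0, 3], [2, 2, 0, 2, 0, 2], [1, 1, 2, 0, 2, 1, 2, 2, 0, 0, 3], [0, 0, 2, 1, 1, 3, 3, 0, 0, 2, 0, 2, 0, 2, 0, 2]),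
  (5, 7, 7, [0, 2, 0, 3], [0, 2, 0, 2, 0, 3], [3, 3, 0, 3, 3, 1, 3, 0, 2, 0, 2, 0, 0, 2, 0, 2, 2], [0, 2, 0, 2, 1, 2, 0, 2, 0, 3, 3, 0, 2, 1, 2, 2]),
  (5, 7, 11, [0, 2, 0, 3], [0, 2, 2, 0, 2, 0, 2, 2, 0, 2], [1, 3, 0, 3, 3, 1, 2, 0, 3, 3, 1, 2, 2], [1, 1, 2, 0, 0, 2, 1, 2, 2, 1, 2, 0, 3, 0]),
  (5, 7, 23, [0, 2, 0, 3], [2, 0, 2, 0, 3, 0], [3, 3, 0, 3, 0, 0, 3, 0, 3, 0, 2, 1, 2, 2, 0, 2, 2], [0, 3, 1, 1, 2, 0, 3, 3, 1, 3, 0, 2, 2, 0, 3, 0, 3]),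
  (5, 11, 11, [0, 2, 0, 3], [0, 2, 2, 0, 2, 0, 2, 0, 2], [1, 2, 0, 0, 2, 2, 0, 3, 1, 3, 1, 3, 1, 2, 0, 3], [2, 1, 3, 1, 1, 3, 0, 3, 3, 1, 3, 1, 2, 2, 0, 0]),
  (5, 11, 23, [0, 2, 0, 3], [3, 0, 2, 0, 3, 0, 3, 0, 3], [1, 3, 1, 1, 2, 1, 3, 1, 2, 0, 2, 1, 3, 3, 3, 0, 2], [3, 0, 2, 0, 2, 0, 3, 1, 3, 3, 3, 1, 3, 0]),
  (5, 23, 23, [0, 2, 0, 3], [2, 0, 2, 2], [1, 3, 3, 0, 2, 0, 2, 1, 1, 3, 3, 0, 2, 0, 2, 1, 2, 2], [2, 0, 0, 2, 0, 2, 1, 1, 3, 3, 0, 2, 0, 2, 1, 1, 3, 3]),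
  (7, 7, 7, [0, 2, 0, 2, 0, 3], [3, 0, 2, 0, 2, 0], [0, 0, 0, 2, 1, 3, 1, 2, 1, 2, 2, 0, 3, 1, 1, 1], [1, 1, 2, 1, 1, 2, 2, 1, 2, 0, 2, 1, 2, 2, 1]),
  (7, 7, 11, [0, 2, 0, 2, 0, 3], [0, 3, 0, 2, 0, 2], [0, 0, 2, 2, 2, 1, 3, 1, 2, 0, 0, 2, 0, 0, 2], [2, 1, 1, 3, 1, 2, 1, 2, 2, 0, 0]),
  (7, 7, 23, [0, 2, 0, 2, 0, 3], [2, 2, 0, 2, 0, 2, 0, 2], [0, 3, 0, 0, 2, 1, 2, 1, 3, 3, 3, 0, 2, 1], [0, 3, 1, 2, 2, 1, 2, 2, 0, 3, 0, 3, 3, 1, 2, 0]),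
  (7, 11, 11, [0, 2, 0, 2, 0, 3], [0, 2, 0, 2, 0, 2, 0, 3, 0, 2, 0], [0, 0, 0, 3, 1, 1, 2, 1, 1, 3, 0, 0, 3, 3, 3], [3, 3, 3, 0, 3, 1, 3, 0, 2, 0, 2, 1, 1]),
  (7, 11, 23, [0, 2, 0, 2, 0, 3], [0, 2, 2, 0, 2, 0, 2, 0, 2], [1, 2, 1, 3, 3, 3, 0, 3, 3, 1, 3, 0, 3, 3], [1, 3, 3, 1, 1, 2, 2, 2, 0, 3, 1, 2, 0, 2]),
  (7, 23, 23, [0, 2, 0, 2, 0, 3], [2, 0], [0, 0, 0, 2, 2, 2, 2, 2, 2, 2, 0, 3, 0, 3, 1, 3, 1, 3], [0, 0, 2, 2, 2, 2, 2, 2, 2, 0, 3, 0, 3, 1, 3, 1, 2]),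
  (11, 11, 11, [0, 2, 0, 2, 0, 2, 0, 2, 2], [2, 0, 2, 2, 0, 2, 0, 2, 0], [3, 0, 3, 0, 0, 2, 0, 0, 2, 0, 3, 1, 2, 0, 2], [1, 1, 2, 2, 0, 2, 1, 2, 2, 1, 3, 0]),
  (11, 11, 23, [0, 2, 0, 2, 0, 2, 0, 2, 2], [0, 2, 0, 3, 0, 2, 2, 0, 2], [0, 3, 3, 3, 3, 0, 2, 1, 1, 2, 0, 2, 1, 1, 3, 0], [2, 2, 1, 3, 0, 0, 2, 0, 0, 2, 0, 3, 1, 2]),
  (11, 23, 23, [0, 2, 0, 2, 0, 2, 0, 2, 2], [2, 0, 2, 2], [1, 1, 1, 1, 1, 2, 2, 0, 3, 1, 3, 3, 1, 3, 3, 3], [0, 0, 0, 0, 3, 0, 3, 0, 2, 0, 3, 3, 1, 2]),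
  (23, 23, 23, [0, 2], [2, 2, 0, 3], [2, 2, 0, 3, 1, 1, 2, 2, 0, 3, 1, 1, 2, 2], [0, 0, 2, 1, 3, 3, 0, 0, 2, 1, 3, 3, 0, 0, 2])]

noncomputable def ordC (u : List ℕ) (p : ℕ) : Bool :=
  and' (eqW 32 5 ns (powW u p) []) (anyLT 24 fun y => not' (mapsW ns u y y))

theorem chkT : allL T (fun t => and' (and' (inK 3 t.2.2.2.1) (inK 3 t.2.2.2.2.1))
    (and' (ordC t.2.2.2.1 t.1) (and' (ordC t.2.2.2.2.1 t.2.1)
    (and' (ordC (invW (appendR t.2.2.2.1 t.2.2.2.2.1)) t.2.2.1)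
    (and' (eqW 32 5 ns [0] (subW [t.2.2.2.1, t.2.2.2.2.1] t.2.2.2.2.2.1))
      (eqW 32 5 ns [2] (subW [t.2.2.2.1, t.2.2.2.2.1] t.2.2.2.2.2.2))))))) = true := by decide +kernel

theorem ord {x : Cfsg.Spor.M23} {u : List ℕ} {p : ℕ} (hp : p.Prime)
    (e : (equiv x : Equiv.Perm ℕ) = wp ns u) (c : ordC u p = true) : orderOf x = p := by
  have := Fact.mk hp
  rw [ordC, and'_eq_true, anyLT_iff] at c
  obtain ⟨y, hy, h⟩ := c.2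
  exact orderOf_of_model ctx equiv e p y (by
    simp only [and'_eq_true, blt_iff]; exact ⟨c.1, by omega, h⟩)

theorem gen_of {p q r : ℕ} (hp : p.Prime) (hq : q.Prime) (hr : r.Prime)
    (h : (p, q, r) ∈ T.map fun t => (t.1, t.2.1, t.2.2.1)) :
    ∃ x y z : Cfsg.Spor.M23, orderOf x = p ∧ orderOf y = q ∧ orderOf z = r ∧ x * y * z = 1 ∧
      closure {x, y} = ⊤ := by
  obtain ⟨⟨_, _, _, u, v, a, b⟩, ht, ⟨⟩⟩ := List.mem_map.1 h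
  have c := (allL_iff _ _).1 chkT _ ht
  simp only [and'_eq_true] at c
  have K : Known ns (gen ns G_ss0) 3 := known_gen (by decide +kernel)
  obtain ⟨x, hx⟩ := equiv.surjective ⟨_, K.word c.1.1⟩
  obtain ⟨y, hy⟩ := equiv.surjective ⟨_, K.word c.1.2⟩
  replace hx := congrArg Subtype.val hx
  replace hy := congrArg Subtype.val hy
  refine ⟨x, y, (x * y)⁻¹, ord hp hx c.2.1, ord hq hy c.2.2.1, ord hr (by
    simp [hx, hy, wp_invW, wp_append]) c.2.2.2.1, mul_inv_cancel _, top_unique fun g _ => ?_⟩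
  have : gen ns G_ss0 ≤ (closure {x, y}).map ((gen ns G_ss0).subtype.comp equiv.toMonoidHom) := by
    have : gen ns [u, v] ≤ (closure {x, y}).map ((gen ns G_ss0).subtype.comp equiv.toMonoidHom) :=
      gen_le_iff.2 (List.forall_mem_cons.2 ⟨⟨x, subset_closure (by simp), hx⟩,
        List.forall_mem_singleton.2 ⟨y, subset_closure (by simp), hy⟩⟩)
    exact gen_le_iff.2 (List.forall_mem_cons.2 ⟨this (wp_eq_of_eqW ctx c.2.2.2.2.1 ▸ subW_mem _ _ _),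
      List.forall_mem_singleton.2 (this (wp_eq_of_eqW ctx c.2.2.2.2.2 ▸ subW_mem _ _ _))⟩)
  exact (mem_map_iff_mem (f := (gen ns G_ss0).subtype.comp equiv.toMonoidHom)
    ((subtype_injective _).comp equiv.injective)).1 (this (equiv g).2)

theorem fix (k : Cfsg.Spor.M23) : Nat.card (MulAction.fixedBy GolayPt k) =
    (M24C.fixSet (⟨k, k.2.1⟩ : M24)).card := by
  rw [← Nat.card_eq_finsetCard]
  exact Nat.card_congr (Equiv.subtypeEquivRight fun _ => M24C.mem_fixSet.symm)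

theorem dm_ge {g : Cfsg.Spor.M23} : (orderOf g = 2 → 16 ≤ dm GolayPt g) ∧ (orderOf g = 3 → 12 ≤ dm GolayPt g) ∧
    (orderOf g = 5 → 8 ≤ dm GolayPt g) ∧ (orderOf g = 7 → 6 ≤ dm GolayPt g) ∧
    ((orderOf g).Prime → 1 ≤ dm GolayPt g) := by
  have c : Fintype.card GolayPt = 24 := rfl
  have o : ∀ k : Cfsg.Spor.M23, orderOf (⟨k, k.2.1⟩ : M24) = orderOf k := fun k => by
    rw [← orderOf_coe, ← orderOf_coe k]
  have n : ∀ k : Cfsg.Spor.M23, (M24C.fixSet (⟨k, k.2.1⟩ : M24)).card ≠ 0 := fun k =>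
    Finset.card_ne_zero.2 ⟨none, M24C.mem_fixSet.2 k.2.2⟩
  have m : ∀ {p}, p.Prime → ∀ k : Cfsg.Spor.M23, orderOf k = p →
      24 % p ≤ Nat.card (MulAction.fixedBy GolayPt k) := fun {p} hp k hk => by
    have := Fact.mk hp
    have h := (IsPGroup.of_card (G := zpowers k) (n := 1)
      (by rw [Nat.card_zpowers, hk, pow_one])).card_modEq_card_fixedPoints GolayPt
    rw [Nat.card_eq_fintype_card, c] at h
    exact h.le.trans ((Nat.mod_le _ _).trans (Nat.card_mono (Set.toFinite _) fun a ha =>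
      ha ⟨k, mem_zpowers k⟩))
  refine ⟨fun h => ?_, fun h => ?_, fun h => ?_, fun h => ?_, fun h => ?_⟩
  · have := le_dm (Ω := GolayPt) (f := 8) Nat.prime_two h fun k hk => by
      obtain ⟨c, e⟩ := M24C.conj_z1 ((o k).trans hk) (n k)
      rw [fix, ← M24C.card_fixSet_z1, M24C.card_fixSet_of_conj e.symm]
    omega
  · have := le_dm (Ω := GolayPt) (f := 6) Nat.prime_three h fun k hk => by
      obtain ⟨c, e⟩ := M24C.conj_x1 ((o k).trans hk) (n k)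
      rw [fix, ← M24C.card_fixSet_x1, M24C.card_fixSet_of_conj e.symm]
    omega
  · have := le_dm (Ω := GolayPt) Nat.prime_five h (m Nat.prime_five)
    omega
  · have := le_dm (Ω := GolayPt) (by norm_num) h (m (by norm_num))
    omega
  · have := le_dm (Ω := GolayPt) (f := 0) h rfl fun _ _ => Nat.zero_le _
    exact Nat.pos_of_ne_zero fun e => by simp [e, c] at this

theorem dm_le {x y z : Cfsg.Spor.M23} (h : x * y * z = 1) (hg : closure {x, y} = ⊤) :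
    dm GolayPt x + dm GolayPt y + dm GolayPt z ≤ 28 :=
  ree h hg (a := none) (b := some 0) fun c => or_iff_not_imp_left.2 fun hc => by
    obtain ⟨g, hg⟩ := M24C.exists_map_tuple (k := 2) (by decide) ![none, some 0] ![none, c] (by decide)
      (fun i j e => by fin_cases i <;> fin_cases j; exacts [rfl, absurd e.symm hc, absurd e hc, rfl])
    exact ⟨⟨g, g.2, hg 0⟩, hg 1⟩

end Cfsg.Agent.Spor.M23Gen
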